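import Cfsg.Prelude.Def_Sporadic_a

/-!
# N2 (S3519), the 2-local case of Co1 and Co2: definitions and boxes (helper26)

Everything happens in a group `G` (think `Co0`) with a faithful representation of degree 24.  See `notes/N2/co2l26.md`.
-/

set_option autoImplicit false

namespace Cfsg.Agent.N2.Co2L

open Cfsg Subgroup
open scoped symmDiff

/-- the space -/
def Vs : Type := GolayPt → ℂ

noncomputable instance instAcgVs : AddCommGroup Vs := inferInstanceAs (AddCommGroup (GolayPt → ℂ))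

noncomputable instance instModVs : Module ℂ Vs := inferInstanceAs (Module ℂ (GolayPt → ℂ))

instance instFinVs : Module.Finite ℂ Vs := inferInstanceAs (Module.Finite ℂ (GolayPt → ℂ))

theorem finrank_Vs : Module.finrank ℂ Vs = 24 :=
  (Module.finrank_fintype_fun_eq_card ℂ (η := GolayPt)).trans rfl

/-- the data: a representation, its character and the element `-1` -/
structure Lx (G : Type) [Group G] where
  ρ : G →* Module.End ℂ Vs
  tr : G → ℤ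
  m : G

variable {G : Type} [Group G]

namespace Lx

variable (L : Lx G)

/-- involutions with a `-1`-space of dimension 8 -/
def I8 (s : G) : Prop := s * s = 1 ∧ L.tr s = 8

/-- the `-1`-spaces meet in `0` -/
def Pp (s t : G) : Prop := L.I8 s ∧ L.I8 t ∧ s * t = t * s ∧ L.tr (s * t) = -8

/-- the `-1`-spaces meet in dimension 4 -/
def Al (s t : G) : Prop := L.I8 s ∧ L.I8 t ∧ s * t = t * s ∧ L.tr (s * t) = 8

/-- the elements which act as `± 1` on the `-1`-space of `s` -/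
def O (s : G) : Subgroup G where
  carrier := {g | g * s = s * g ∧ (L.ρ g * (1 - L.ρ s) = 1 - L.ρ s ∨ L.ρ g * (1 - L.ρ s) = -(1 - L.ρ s))}
  one_mem' := ⟨by simp, Or.inl (by simp)⟩
  mul_mem' := by
    rintro a b ⟨h1, h2⟩ ⟨h3, h4⟩
    refine ⟨by rw [mul_assoc, h3, ← mul_assoc, h1, mul_assoc], ?_⟩
    rw [map_mul, mul_assoc]
    rcases h2 with h2 | h2 <;> rcases h4 with h4 | h4 <;> rw [h4]
    · exact Or.inl h2
    · exact Or.inr (by rw [mul_neg, h2])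
    · exact Or.inr h2
    · exact Or.inl (by rw [mul_neg, h2, neg_neg])
  inv_mem' := by
    rintro a ⟨h1, h2⟩
    refine ⟨(show Commute a s from h1).inv_left.eq, ?_⟩
    have h3 : ∀ x, L.ρ a⁻¹ * (L.ρ a * x) = x := fun x => by rw [← mul_assoc, ← map_mul, inv_mul_cancel, map_one, one_mul]
    rcases h2 with h2 | h2
    · left
      conv_lhs => rw [← h2]
      exact h3 _
    · right
      have := h3 (1 - L.ρ s)
      rw [h2, mul_neg] at this
      exact neg_eq_iff_eq_neg.1 this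

/-- the group generated by `m` and `D` -/
def U (D : Set G) : Subgroup G := closure (insert L.m D)

/-- the sextet group of a pair -/
def W (s t : G) : Subgroup G := closure ({L.m, s, t} ∪ {y | L.Pp s y ∧ L.Pp t y})

/-- no element of trace `0` -/
def Pure (E : Subgroup G) : Prop := ∀ u ∈ E, L.tr u ≠ 0

/-- ordered pairs of type alpha in a set -/
def Prs (X : Set G) : Set (G × G) := {p | p.1 ∈ X ∧ p.2 ∈ X ∧ L.Al p.1 p.2}

end Lx

/-- the facts on the big group -/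
structure Ok (L : Lx G) : Prop where
  trace : ∀ g, LinearMap.trace ℂ Vs (L.ρ g) = L.tr g
  inj : Function.Injective L.ρ
  neg : L.ρ L.m = -1
  inv : ∀ g, g * g = 1 → g = 1 ∨ g = L.m ∨ L.tr g = 8 ∨ L.tr g = 0 ∨ L.tr g = -8
  pow : ∀ (g : G) (k : ℕ), k.Coprime (orderOf g) → L.tr (g ^ k) = L.tr g
  card : ∀ s, L.I8 s → Nat.card (L.O s) = 1024
  comm : ∀ s, L.I8 s → ∀ a ∈ L.O s, ∀ b ∈ L.O s, a * b = b * a ∨ a * b = b * a * (L.m * s)
  cent : ∀ s, L.I8 s → ∀ g, (∀ a ∈ L.O s, g * a = a * g) → g = 1 ∨ g = L.m ∨ g = s ∨ g = L.m * s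

/-- the facts on `A ≤ H` (`H = Co0` or `Co2 × ⟨m⟩`, `A` the preimage of the maximal subgroup, `D0` the lifts of trace 8 of
the 2-central involutions) -/
structure Cx (L : Lx G) (H A : Subgroup G) (D0 : Set G) : Prop where
  le : A ≤ H
  mA : L.m ∈ A
  d8 : ∀ s ∈ D0, L.I8 s
  dH : ∀ s ∈ D0, L.O s ≤ H
  dc : ∀ s ∈ D0, ∀ g ∈ H, g * s * g⁻¹ ∈ D0
  mx : ∀ E : Subgroup G, E ≤ H → IsPGroup 2 E → (∃ u ∈ E, u ≠ 1 ∧ u ≠ L.m) → (∀ a ∈ A, ∀ u ∈ E, a * u * a⁻¹ ∈ E) →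
    ∀ g ∈ H, (∀ u ∈ E, g * u * g⁻¹ ∈ E) → g ∈ A
  syl : ∀ P : Subgroup G, P ≤ H → IsPGroup 2 P → ∃ s ∈ D0, ∀ x ∈ P, x * s = s * x
  big : ∀ s ∈ H, L.I8 s → Nat.card A < Nat.card ↥(H ⊓ centralizer {s})
  big2 : ∀ s ∈ D0, 256 * Nat.card A < Nat.card ↥(H ⊓ centralizer {s})
  mode : ((∀ s, L.I8 s → s ∈ D0) ∧ Nat.card (L.Prs D0) * Nat.card A < 30 * Nat.card H) ∨
    ((∃ T0 : Subgroup G, L.m ∉ T0 ∧ (∀ h ∈ H, h ∈ T0 ∨ L.m * h ∈ T0) ∧ ∀ s ∈ D0, L.m * s ∈ T0) ∧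
      (∀ s ∈ D0, ∀ t ∈ D0, ¬ L.Pp s t) ∧ Nat.card (L.Prs D0) * Nat.card A < 6 * Nat.card H)
  o1 : ∀ x ∈ A, (orderOf x).Prime → orderOf x = 2 ∨
    (orderOf x = 3 ∧ (L.tr x = -12 ∨ L.tr x = 6 ∨ L.tr x = -3 ∨ L.tr x = 0)) ∨
    (orderOf x = 5 ∧ (L.tr x = -6 ∨ L.tr x = 4 ∨ L.tr x = -1)) ∨ (orderOf x = 7 ∧ L.tr x = -4)
  o9 : ∀ x ∈ A, orderOf x ≠ 9
  o2 : ∀ x ∈ A, (orderOf x).Prime → orderOf x ≠ 2 → ∀ j ∈ A, j * j = 1 → x * j = j * x → L.tr j ≠ 0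
  o3 : ∀ x ∈ A, (orderOf x).Prime → orderOf x ≠ 2 → L.tr x ≠ -12 → ∀ q ∈ A, x * q = q * x → orderOf q ≠ 4
  o4 : ∀ x ∈ A, (orderOf x).Prime → orderOf x ≠ 2 → (L.tr x = 0 ∨ L.tr x = 4 ∨ L.tr x = -1) →
    ∀ s ∈ A, L.I8 s → x * s ≠ s * x
  o5 : ∀ q ∈ A, orderOf q = 4 → L.tr q ≤ 8
  o6 : ∀ w ∈ A, ∀ a ∈ A, ∀ g ∈ A, orderOf w = 3 → L.tr w = 6 → L.I8 (a * (g * a * g⁻¹)) →
    w * (a * (g * a * g⁻¹)) = a * (g * a * g⁻¹) * w → L.tr (w * (a * (g * a * g⁻¹))) = 2 → 442368 < Nat.card A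

/-- `Q = O₂(A)` -/
structure Core (A Q : Subgroup G) : Prop where
  le : Q ≤ A
  two : IsPGroup 2 Q
  nrm : ∀ a ∈ A, ∀ q ∈ Q, a * q * a⁻¹ ∈ Q
  max : ∀ K : Subgroup G, K ≤ A → (∀ a ∈ A, ∀ k ∈ K, a * k * a⁻¹ ∈ K) → ∀ X : Subgroup G, X ≤ K → IsPGroup 2 X →
    (∀ k ∈ K, ∀ x ∈ X, k * x * k⁻¹ ∈ X) → X ≤ Q

/-- an invariant set of 2-central involutions in the centre of `Q` -/
structure Us (A Q : Subgroup G) (D0 D : Set G) : Prop where
  sub : D ⊆ D0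
  ne : D.Nonempty
  cj : ∀ a ∈ A, ∀ s ∈ D, a * s * a⁻¹ ∈ D
  mem : ∀ s ∈ D, s ∈ Q
  cen : ∀ s ∈ D, ∀ q ∈ Q, q * s = s * q

/-- all the standing hypotheses -/
structure St (L : Lx G) (H A Q : Subgroup G) (D0 D : Set G) : Prop where
  ok : Ok L
  cx : Cx L H A D0
  co : Core A Q
  us : Us A Q D0 D

/-- the consequences of "not pure" -/
structure Np (L : Lx G) (A Q : Subgroup G) (D : Set G) : Prop where
  ex : ∃ u ∈ L.U D, L.tr u = 0
  cen : ∀ x ∈ A, (∀ u ∈ L.U D, x * u = u * x) → x ∈ Q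
  t3 : ∀ x ∈ A, orderOf x = 3 → L.tr x = 6 ∨ L.tr x = -3 ∨ L.tr x = 0
  t5 : ∀ x ∈ A, orderOf x = 5 → L.tr x = 4 ∨ L.tr x = -1
  pr : ∀ p : ℕ, p.Prime → p ∣ Nat.card A → p = 2 ∨ p = 3 ∨ p = 5

/-- two four-groups `{1, a, b, a b}`, `{1, c, d, c d}` in `E` and `⟨v, w⟩ ≅ 3²` acting on them -/
structure Ff (L : Lx G) (A E : Subgroup G) (v w a b c d : G) : Prop where
  vA : v ∈ A
  wA : w ∈ A
  ov : orderOf v = 3
  ow : orderOf w = 3
  vw : v * w = w * v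
  aE : a ∈ E
  bE : b ∈ E
  cE : c ∈ E
  dE : d ∈ E
  va : v * a * v⁻¹ = a
  vb : v * b * v⁻¹ = b
  vc : v * c * v⁻¹ = d
  vd : v * d * v⁻¹ = c * d
  wa : w * a * w⁻¹ = b
  wb : w * b * w⁻¹ = a * b
  wc : w * c * w⁻¹ = c
  wd : w * d * w⁻¹ = d
  ta : L.tr a = 8
  tc : L.tr c = 8
  tac : L.tr (a * c) = 8

/-! ### tools -/

/-- simultaneous diagonalisation: an elementary abelian 2-group is a binary code of length 24 -/
def BoxDiag : Prop := ∀ (G : Type) [Group G] [Finite G] (L : Lx G), Ok L → ∀ E : Subgroup G, (∀ a ∈ E, a * a = 1) →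
  ∃ S : G → Finset (Fin 24), (∀ a ∈ E, ∀ b ∈ E, S (a * b) = S a ∆ S b) ∧ ∀ a ∈ E, L.tr a = 24 - 2 * ((S a).card : ℤ)

/-- an element of prime order which acts without fixed points on `E` -/
def BoxFpf : Prop := ∀ (G : Type) [Group G] [Fintype G] (L : Lx G), Ok L → ∀ (E : Subgroup G) [DecidablePred (· ∈ E)] (x : G),
  (orderOf x).Prime → (∀ a ∈ E, ∀ b ∈ E, a * b = b * a) → (∀ a ∈ E, x * a * x⁻¹ ∈ E) →
  (∀ a ∈ E, x * a = a * x → a = 1) → ∃ n k : ℕ, ∑ a ∈ Finset.univ.filter (· ∈ E), L.tr a = Nat.card E * k ∧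
    (k : ℤ) + ((orderOf x : ℤ) - 1) * L.tr x = orderOf x * n ∧ (E ≠ ⊥ → k < 24)

/-- an idempotent which commutes with an element of order three -/
def BoxThree : Prop := ∀ (e x : Module.End ℂ Vs) (n τ : ℚ), e * e = e → e * x = x * e → x * x * x = 1 →
  LinearMap.trace ℂ Vs e = n → LinearMap.trace ℂ Vs (e * x) = τ → LinearMap.trace ℂ Vs (e * (x * x)) = τ →
  ∃ i j : ℕ, n = i + 2 * j ∧ τ = i - j

/-! ### the boxes -/

/-- a statement under the standing hypotheses -/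
def Un (P : ∀ (G : Type) [Group G], Lx G → (H A Q : Subgroup G) → (D0 D : Set G) → Prop) : Prop :=
  ∀ (G : Type) [Group G] [Finite G] (L : Lx G) (H A Q : Subgroup G) (D0 D : Set G), St L H A Q D0 D → P G L H A Q D0 D

/-- characteristic two -/
def BoxG0 : Prop := ∀ (G : Type) [Group G] [Finite G] (L : Lx G) (H A Q : Subgroup G) (D0 : Set G), Ok L → Cx L H A D0 →
  Core A Q → ∀ s ∈ D0, s ∈ Q → (∀ q ∈ Q, q * s = s * q) → ∀ x ∈ A, Odd (orderOf x) → (∀ q ∈ Q, x * q = q * x) → x = 1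

/-- perpendicular partners -/
def BoxR : Prop := Un fun _ _ L _ _ _ D0 D => ∀ s ∈ L.U D, s ∈ D0 → ∃ t ∈ L.U D, L.Pp s t

/-- the radical is empty -/
def BoxRad : Prop := Un fun _ _ L _ _ _ _ D => ∀ z ∈ L.U D, L.I8 z → ∃ y ∈ L.U D, L.I8 y ∧ y ≠ z ∧ ¬ L.Pp z y

/-- pure combinatorics: six tetrads -/
def BoxSix : Prop := ∀ (G : Type) [Group G] [Finite G] (L : Lx G), Ok L → ∀ E : Subgroup G, L.m ∈ E → (∀ a ∈ E, a * a = 1) →
  L.Pure E → (∀ z ∈ E, L.I8 z → ∃ y ∈ E, L.I8 y ∧ y ≠ z ∧ ¬ L.Pp z y) → ∀ s ∈ E, ∀ t ∈ E, L.Al s t → (∃ r ∈ E, L.Pp s r) →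
  E = L.W s t ∧ 30 ≤ Nat.card (L.Prs E)

/-- counting the conjugates of `U` -/
def BoxCnt : Prop := Un fun _ _ L H A _ D0 D => (∀ s ∈ L.U D, ∀ t ∈ L.U D, s ∈ D0 → L.Al s t → L.U D = L.W s t) →
  Nat.card (L.Prs (D0 ∩ L.U D)) * Nat.card H ≤ Nat.card (L.Prs D0) * Nat.card A

/-- the consequences of "not pure" -/
def BoxNp : Prop := Un fun _ _ L _ A Q _ D => (∃ u ∈ L.U D, L.tr u = 0) → Np L A Q D

/-- the prime 5 -/
def BoxC5 : Prop := Un fun _ _ L _ A Q D0 D => Np L A Q D → ∀ f ∈ A, orderOf f = 5 → ∃ D', Us A Q D0 D' ∧ L.Pure (L.U D')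

/-- the two four-groups -/
def BoxFf : Prop := Un fun G _ L _ A Q _ D => Np L A Q D → ∀ x ∈ A, ∀ y ∈ A, orderOf x = 3 → orderOf y = 3 → x * y = y * x →
  y ∉ zpowers x → ∃ v w a b c d : G, Ff L A (L.U D) v w a b c d ∧ v ∈ closure {x, y} ∧ w ∈ closure {x, y}

/-- the class `6e` occurs -/
def BoxE6 : Prop := Un fun G _ L _ A Q _ D => Np L A Q D → ∀ v w a b c d : G, Ff L A (L.U D) v w a b c d →
  442368 < Nat.card A

/-- the order of `Q` -/
def BoxQ : Prop := Un fun G _ L _ A Q _ D => Np L A Q D → ∀ v w a b c d : G, Ff L A (L.U D) v w a b c d →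
  Nat.card Q ≤ 1024 ∧ Nat.card ↥(Q ⊓ centralizer {v, w}) ≤ 4

/-- pure group theory: the order of a `{2, 3}`-group -/
def BoxHb : Prop := ∀ (G : Type) [Group G] [Finite G] (A Q E : Subgroup G) (m : G), Core A Q → m ∈ Q → m ≠ 1 →
  (∀ g, g * m = m * g) → E ≤ Q → (∀ a ∈ A, ∀ u ∈ E, a * u * a⁻¹ ∈ E) → (∀ x ∈ A, (∀ u ∈ E, x * u = u * x) → x ∈ Q) →
  (∀ p : ℕ, p.Prime → p ∣ Nat.card A → p = 2 ∨ p = 3) → (∀ x ∈ A, orderOf x ≠ 9) →
  (∀ x ∈ A, ∀ y ∈ A, orderOf x = 3 → orderOf y = 3 → x * y = y * x → y ∉ zpowers x →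
    Nat.card ↥(Q ⊓ centralizer {x, y}) ≤ 4) → Nat.card A ≤ 432 * Nat.card Q

/-- the main theorem in characteristic two -/
def BoxMain : Prop := ∀ (G : Type) [Group G] [Finite G] (L : Lx G) (H A Q : Subgroup G) (D0 : Set G), Ok L → Cx L H A D0 →
  Core A Q → (∃ u ∈ Q, u ≠ 1 ∧ u ≠ L.m) → (∀ x ∈ A, Odd (orderOf x) → (∀ q ∈ Q, x * q = q * x) → x = 1) → False

/-! ### first facts -/

theorem idem_zero {e : Module.End ℂ Vs} (he : e * e = e) (h : LinearMap.trace ℂ Vs e = 0) : e = 0 :=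
  (LinearMap.IsIdempotentElem.trace_eq_zero_iff he).1 h

theorem idem_rank {e : Module.End ℂ Vs} (he : e * e = e) :
    LinearMap.trace ℂ Vs e = (Module.finrank ℂ (LinearMap.range e) : ℕ) :=
  (LinearMap.IsIdempotentElem.isProj_range e he).trace

theorem idem_nat {e : Module.End ℂ Vs} (he : e * e = e) : ∃ n : ℕ, LinearMap.trace ℂ Vs e = n := ⟨_, idem_rank he⟩

variable {L : Lx G}

namespace Ok

variable (h : Ok L)
include h

theorem m_comm (g : G) : g * L.m = L.m * g := h.inj (by rw [map_mul, map_mul, h.neg, mul_neg, neg_mul, mul_one, one_mul])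

theorem m_sq : L.m * L.m = 1 := h.inj (by rw [map_mul, h.neg, map_one, neg_mul_neg, mul_one])

theorem tr_one : L.tr 1 = 24 := by
  have := h.trace 1
  rw [map_one, LinearMap.trace_one, finrank_Vs] at this
  exact_mod_cast this.symm

theorem tr_m_mul (g : G) : L.tr (L.m * g) = -L.tr g := by
  have := h.trace (L.m * g)
  rw [map_mul, h.neg, neg_mul, one_mul, map_neg, h.trace] at this
  exact_mod_cast this.symm

theorem tr_m : L.tr L.m = -24 := by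
  have := h.tr_m_mul 1
  rwa [mul_one, h.tr_one] at this

theorem m_ne : L.m ≠ 1 := fun k => by
  have := h.tr_m
  rw [k, h.tr_one] at this
  omega

theorem tr_comm (a b : G) : L.tr (a * b) = L.tr (b * a) := by
  have := h.trace (a * b)
  rw [map_mul, LinearMap.trace_mul_comm, ← map_mul, h.trace] at this
  exact_mod_cast this.symm

theorem tr_conj (g a : G) : L.tr (g * a * g⁻¹) = L.tr a := by
  rw [h.tr_comm, ← mul_assoc, inv_mul_cancel, one_mul]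

theorem conj_m (g : G) : g * L.m * g⁻¹ = L.m := by rw [h.m_comm, mul_inv_cancel_right]

theorem i8_conj {s : G} (hs : L.I8 s) (g : G) : L.I8 (g * s * g⁻¹) :=
  ⟨by rw [conj_mul, hs.1, mul_one, mul_inv_cancel], by rw [h.tr_conj, hs.2]⟩

theorem i8_ne {s : G} (hs : L.I8 s) : s ≠ 1 ∧ s ≠ L.m := by
  constructor <;> intro k <;> have := hs.2
  · rw [k, h.tr_one] at this; omega
  · rw [k, h.tr_m] at this; omega

theorem pp_conj {s t : G} (k : L.Pp s t) (g : G) : L.Pp (g * s * g⁻¹) (g * t * g⁻¹) :=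
  ⟨h.i8_conj k.1 g, h.i8_conj k.2.1 g, by rw [conj_mul, conj_mul, k.2.2.1], by rw [conj_mul, h.tr_conj, k.2.2.2]⟩

theorem al_conj {s t : G} (k : L.Al s t) (g : G) : L.Al (g * s * g⁻¹) (g * t * g⁻¹) :=
  ⟨h.i8_conj k.1 g, h.i8_conj k.2.1 g, by rw [conj_mul, conj_mul, k.2.2.1], by rw [conj_mul, h.tr_conj, k.2.2.2]⟩

theorem m_mem_O (s : G) : L.m ∈ L.O s := ⟨(h.m_comm s).symm, Or.inr (by rw [h.neg, neg_mul, one_mul])⟩

theorem two_O {s : G} (hs : L.I8 s) : IsPGroup 2 (L.O s) := IsPGroup.of_card (n := 10) (h.card s hs)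

/-- a perpendicular partner acts trivially on the `-1`-space -/
theorem pp_mul {s t : G} (k : L.Pp s t) : L.ρ t * (1 - L.ρ s) = 1 - L.ρ s := by
  obtain ⟨⟨h1, h2⟩, ⟨h3, h4⟩, h5, h6⟩ := k
  have e1 : L.ρ s * L.ρ s = 1 := by rw [← map_mul, h1, map_one]
  have e2 : L.ρ t * L.ρ t = 1 := by rw [← map_mul, h3, map_one]
  have e3 : L.ρ s * L.ρ t = L.ρ t * L.ρ s := by rw [← map_mul, h5, map_mul]
  have i1 : IsIdempotentElem ((1 / 2 : ℂ) • (1 - L.ρ s)) := by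
    show _ * _ = _
    rw [smul_mul_smul_comm, sub_mul, one_mul, mul_sub, mul_one, e1]
    module
  have i2 : IsIdempotentElem ((1 / 2 : ℂ) • (1 - L.ρ t)) := by
    show _ * _ = _
    rw [smul_mul_smul_comm, sub_mul, one_mul, mul_sub, mul_one, e2]
    module
  have c : Commute ((1 / 2 : ℂ) • (1 - L.ρ t)) ((1 / 2 : ℂ) • (1 - L.ρ s)) :=
    (((Commute.one_left _).sub_left ((Commute.one_right _).sub_right e3.symm)).smul_left _).smul_right _
  have i3 := idem_zero (IsIdempotentElem.mul_of_commute c i2 i1) (by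
    rw [smul_mul_smul_comm, sub_mul, one_mul, mul_sub, mul_one, ← map_mul, ← h5, map_smul, map_sub, map_sub, map_sub,
      ← map_one L.ρ, h.trace, h.trace, h.trace, h.trace, h.tr_one, h2, h4, h6]
    norm_num)
  rw [smul_mul_smul_comm, smul_eq_zero, sub_mul, one_mul, sub_eq_zero] at i3
  exact (i3.resolve_left (by norm_num)).symm

theorem pp_mem {s t : G} (k : L.Pp s t) : t ∈ L.O s := ⟨k.2.2.1.symm, Or.inl (h.pp_mul k)⟩

end Ok

theorem Lx.Pp.symm {s t : G} (k : L.Pp s t) : L.Pp t s := ⟨k.2.1, k.1, k.2.2.1.symm, k.2.2.1 ▸ k.2.2.2⟩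

theorem Lx.Al.symm {s t : G} (k : L.Al s t) : L.Al t s := ⟨k.2.1, k.1, k.2.2.1.symm, k.2.2.1 ▸ k.2.2.2⟩

theorem self_mem_O {s : G} (hs : s * s = 1) : s ∈ L.O s :=
  ⟨rfl, Or.inr (by rw [mul_sub, mul_one, ← map_mul, hs, map_one, neg_sub])⟩

theorem conj_mem_O {s a : G} (ha : a ∈ L.O s) (g : G) : g * a * g⁻¹ ∈ L.O (g * s * g⁻¹) := by
  have e : 1 - L.ρ (g * s * g⁻¹) = L.ρ g * (1 - L.ρ s) * L.ρ g⁻¹ := by
    rw [mul_sub, sub_mul, mul_one, ← map_mul, ← map_mul, ← map_mul, mul_inv_cancel, map_one]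
  have e2 : L.ρ (g * a * g⁻¹) * (L.ρ g * (1 - L.ρ s) * L.ρ g⁻¹) = L.ρ g * (L.ρ a * (1 - L.ρ s)) * L.ρ g⁻¹ := by
    rw [← mul_assoc, ← mul_assoc, ← map_mul, inv_mul_cancel_right, map_mul, mul_assoc (L.ρ g)]
  refine ⟨by rw [conj_mul, conj_mul, ha.1], ?_⟩
  rw [e, e2]
  exact ha.2.imp (fun k => by rw [k]) fun k => by rw [k, mul_neg, neg_mul]

/-- the centraliser of `s` normalises `O s` -/
theorem norm_O {s a g : G} (ha : a ∈ L.O s) (hg : g * s = s * g) : g * a * g⁻¹ ∈ L.O s := by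
  have := conj_mem_O ha g
  rwa [hg, mul_inv_cancel_right] at this

theorem m_mem_U (D : Set G) : L.m ∈ L.U D := subset_closure (Set.mem_insert _ _)

theorem mem_U {D : Set G} {s : G} (hs : s ∈ D) : s ∈ L.U D := subset_closure (Set.mem_insert_of_mem _ hs)

variable {H A Q : Subgroup G} {D0 D : Set G}

theorem Cx.mem_H (c : Cx L H A D0) {s : G} (hs : s ∈ D0) : s ∈ H := c.dH s hs (self_mem_O (c.d8 s hs).1)

/-- a normal 2-subgroup lies in `Q` -/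
theorem Core.max' (c : Core A Q) {X : Subgroup G} (h1 : X ≤ A) (h2 : IsPGroup 2 X) (h3 : ∀ a ∈ A, ∀ x ∈ X, a * x * a⁻¹ ∈ X) :
    X ≤ Q := c.max A le_rfl (fun _ ha _ hk => A.mul_mem (A.mul_mem ha hk) (A.inv_mem ha)) X h1 h2 h3

theorem two_zpowers {s : G} (hs : s * s = 1) : IsPGroup 2 (zpowers s) := by
  rintro ⟨_, k, rfl⟩
  refine ⟨1, Subtype.ext ?_⟩
  show (s ^ k) ^ 2 ^ 1 = 1
  rw [pow_one, ← zpow_natCast, ← zpow_mul, mul_comm, zpow_mul, zpow_natCast, pow_two, hs, one_zpow]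

theorem m_mem_Q (o : Ok L) (c : Cx L H A D0) (k : Core A Q) : L.m ∈ Q :=
  k.max' (zpowers_le.2 c.mA) (two_zpowers o.m_sq) (by
    rintro a - _ ⟨n, rfl⟩
    exact ⟨n, by rw [← conj_zpow, o.conj_m]⟩) (mem_zpowers _)

/-- `A` does not centralise an involution of trace 8 -/
theorem Cx.not_cent [Finite G] (o : Ok L) (c : Cx L H A D0) {s : G} (hH : s ∈ H) (hs : L.I8 s)
    (h : ∀ a ∈ A, a * s = s * a) : False := by
  have e : ∀ a : G, a * s = s * a → ∀ u ∈ zpowers s, a * u * a⁻¹ ∈ zpowers s := by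
    rintro a ha _ ⟨n, rfl⟩
    exact ⟨n, by rw [← conj_zpow, ha, mul_inv_cancel_right]⟩
  refine absurd (c.big s hH hs) (not_lt.2 (card_le_of_le fun g hg => ?_))
  exact c.mx (zpowers s) (zpowers_le.2 hH) (two_zpowers hs.1) ⟨s, mem_zpowers s, o.i8_ne hs⟩ (fun a ha => e a (h a ha)) g hg.1
    (e g (mem_centralizer_singleton_iff.1 hg.2))

namespace St

variable (h : St L H A Q D0 D)
include h

theorem m_Q : L.m ∈ Q := m_mem_Q h.ok h.cx h.co

theorem U_le : L.U D ≤ Q := (closure_le _).2 (Set.insert_subset h.m_Q h.us.mem)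

theorem U_le_A : L.U D ≤ A := h.U_le.trans h.co.le

theorem U_le_H : L.U D ≤ H := h.U_le_A.trans h.cx.le

theorem U_cen {u q : G} (hu : u ∈ L.U D) (hq : q ∈ Q) : q * u = u * q := by
  have : L.U D ≤ centralizer {q} := (closure_le _).2 (Set.insert_subset
    (mem_centralizer_singleton_iff.2 (h.ok.m_comm q).symm) fun s hs => mem_centralizer_singleton_iff.2 (h.us.cen s hs q hq).symm)
  exact (mem_centralizer_singleton_iff.1 (this hu)).symm

theorem U_comm {u v : G} (hu : u ∈ L.U D) (hv : v ∈ L.U D) : u * v = v * u := h.U_cen hv (h.U_le hu)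

theorem U_sq {u : G} (hu : u ∈ L.U D) : u * u = 1 := by
  induction hu using closure_induction with
  | mem x hx => exact hx.elim (fun k => k ▸ h.ok.m_sq) fun k => (h.cx.d8 x (h.us.sub k)).1
  | one => exact mul_one 1
  | mul x y hx hy ix iy => rw [mul_assoc, ← mul_assoc y, ← h.U_comm hx hy, mul_assoc, iy, mul_one, ix]
  | inv x _ ix => rw [← mul_inv_rev, ix, inv_one]

theorem U_two : IsPGroup 2 (L.U D) := h.co.two.to_le h.U_le

theorem U_conj {a u : G} (ha : a ∈ A) (hu : u ∈ L.U D) : a * u * a⁻¹ ∈ L.U D := by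
  induction hu using closure_induction with
  | mem x hx => exact hx.elim (fun k => by rw [k, h.ok.conj_m]; exact m_mem_U D) fun k => mem_U (h.us.cj a ha x k)
  | one => rw [mul_one, mul_inv_cancel]; exact one_mem _
  | mul x y _ _ ix iy => rw [← conj_mul]; exact mul_mem ix iy
  | inv x _ ix => rw [← conj_inv]; exact inv_mem ix

/-- `A` is the normaliser of `U` -/
theorem norm_U {g : G} (hg : g ∈ H) (hn : ∀ u ∈ L.U D, g * u * g⁻¹ ∈ L.U D) : g ∈ A := by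
  obtain ⟨s, hs⟩ := h.us.ne
  exact h.cx.mx _ h.U_le_H h.U_two ⟨s, mem_U hs, h.ok.i8_ne (h.cx.d8 s (h.us.sub hs))⟩ (fun _ ha _ hu => h.U_conj ha hu) g hg hn

/-- `A` is the normaliser of `Q` -/
theorem norm_Q {g : G} (hg : g ∈ H) (hn : ∀ u ∈ Q, g * u * g⁻¹ ∈ Q) : g ∈ A := by
  obtain ⟨s, hs⟩ := h.us.ne
  exact h.cx.mx _ (h.co.le.trans h.cx.le) h.co.two ⟨s, h.us.mem s hs, h.ok.i8_ne (h.cx.d8 s (h.us.sub hs))⟩ h.co.nrm g hg hn

/-- the traces on `U` -/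
theorem U_tr {u : G} (hu : u ∈ L.U D) : u = 1 ∨ u = L.m ∨ L.tr u = 8 ∨ L.tr u = 0 ∨ L.tr u = -8 := h.ok.inv u (h.U_sq hu)

end St

end Cfsg.Agent.N2.Co2L
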